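import Cfsg.Agent.H118.Four.Count
import Cfsg.Agent.H163.Steinberg
import Cfsg.Agent.H732.PB.AltSplit
import Cfsg.Agent.H979.LieSplit

/-!
# The index of a subgroup of odd order (S5719, block ODD)

* `degree_le_index` : a real irreducible character of odd degree of `K` has degree at most the index of every subgroup
  of odd order.
* `exists_real_steinberg` : the Steinberg character of a split (B,N)-pair is real.
* `part_le_index` : for a group with a split (B,N)-pair of characteristic `p` (any prime `p`) the `p`-part of `|K|` is at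
  most the index of every subgroup of odd order.
* `part_le_index_of_lie`, `part_le_relIndex` : the versions for simple groups of Lie type and for subgroups.
-/

set_option autoImplicit false

namespace Cfsg.Agent.H283.Fxo

open Cfsg Subgroup Cfsg.Agent.H601.OddDeg Cfsg.Agent.FixBN

universe u

section

variable {K : Type u} [Group K] [Finite K]

/-- **The index of a subgroup of odd order** is at least the degree of every real irreducible character of odd degree. -/
theorem degree_le_index {X : Subgroup K} (hX : Odd (Nat.card X)) {χ : K → ℂ} (hχ : IsIrrCharacter K χ)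
    (hreal : ∀ x, (χ x).im = 0) (hd : Odd (charDegree χ)) : charDegree χ ≤ X.index := by
  classical
  have := Fintype.ofFinite K
  have hfin : Finite (IrrCharacter K) := Cfsg.Agent.Characters.Core.finite_irr
  have := Fintype.ofFinite (IrrCharacter K)
  have hm : ∀ χ : IrrCharacter K, ∃ n : ℕ, mult X (χ : K → ℂ) = n := fun χ =>
    exists_mult_eq X (Cfsg.Agent.Characters.Core.isIrr_isCharacter χ.2)
  choose m hm using hm
  have hdeg : ∀ χ : IrrCharacter K, (χ : K → ℂ) 1 = charDegree (χ : K → ℂ) := fun χ =>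
    Cfsg.Agent.Blocks.Basic.irr_one_eq_charDegree χ.2
  have hsum : ∑ χ : IrrCharacter K, m χ * charDegree (χ : K → ℂ) = X.index := by
    have h1 := sum_mult X
    have h2 : ∀ χ : IrrCharacter K, mult X (χ : K → ℂ) * (χ : K → ℂ) 1 =
        ((m χ * charDegree (χ : K → ℂ) : ℕ) : ℂ) := by
      intro χ
      rw [hm, hdeg]
      push_cast
      rfl
    rw [Finset.sum_congr rfl fun χ _ => h2 χ] at h1
    exact_mod_cast h1
  let c : IrrCharacter K := ⟨χ, hχ⟩
  have hodd : Odd (m c) := H118.Four.mult_odd hX hχ hreal (fun h2 => by rw [Nat.odd_iff] at hd; omega) (hm c)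
  have h1 : 1 * charDegree χ ≤ m c * charDegree χ := Nat.mul_le_mul_right _ hodd.pos
  have h2 : m c * charDegree χ ≤ ∑ χ : IrrCharacter K, m χ * charDegree (χ : K → ℂ) :=
    Finset.single_le_sum (f := fun χ : IrrCharacter K => m χ * charDegree (χ : K → ℂ)) (fun _ _ => Nat.zero_le _)
      (Finset.mem_univ c)
  omega

end

section Steinberg

open Cfsg.Agent Cfsg.Agent.Tits.Core Cfsg.Agent.Tits.Core.Bldg Cfsg.Agent.Tits.OfBN

/-- **The Steinberg character is real**, of degree the order of a Sylow subgroup. -/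
theorem exists_real_steinberg {K : Type u} [Group K] [Finite K] {P : Cfsg.BNPair K} {p : ℕ} [Fact p.Prime]
    {U : Subgroup K} (h : Split P p U) :
    ∃ χ : K → ℂ, IsIrrCharacter K χ ∧ (∀ g, (χ g).im = 0) ∧
      charDegree χ = p ^ (Nat.card K).factorization p := by
  classical
  have hN : ((P.B ⊓ P.N).subgroupOf P.N).Normal := normal_subgroupOf P
  obtain ⟨M, cs, hcs⟩ := S0320.result P
  have : Fintype P.S := Fintype.ofFinite _
  have : Fintype (K ⧸ P.B) := Fintype.ofFinite _
  have hC : Tits.OppRes.Cox cs := inferInstance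
  set Δ := bldg P (Equiv.refl P.S) cs hcs with hΔ
  have S : FixBN.Sys Δ K p := FixBN.OfBN.sys (Equiv.refl P.S) cs hcs h
  set c : K ⧸ P.B := QuotientGroup.mk 1 with hc
  have hiso : ∀ (g : K) (x y : K ⧸ P.B), Δ.δ (g • x) (g • y) = Δ.δ x y := fun g x y => dist_smul P g x y
  have htr : ∀ x y x' y', Δ.δ x y = Δ.δ x' y' → ∃ g : K, g • x = x' ∧ g • y = y' :=
    fun x y x' y' hd => Cfsg.Agent.Tits.OfBN.trans P x y x' y' hd
  -- the parabolic subgroups
  let Q : Finset P.S → Subgroup K := fun J =>
    { carrier := {g | Δ.δ c (g • c) ∈ WJ cs (J : Set P.S)}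
      one_mem' := by
        show Δ.δ c ((1 : K) • c) ∈ WJ cs (J : Set P.S)
        rw [one_smul, (Δ.eq_one c c).2 rfl]
        exact one_mem _
      mul_mem' := by
        intro a b ha hb
        show Δ.δ c ((a * b) • c) ∈ WJ cs (J : Set P.S)
        have h1 : (a • c) ∈ Δ.Res (J : Set P.S) c := Δ.mem_Res.2 ha
        have h2 : (a • b • c) ∈ Δ.Res (J : Set P.S) (a • c) := by
          rw [Δ.mem_Res, hiso]; exact hb
        rw [mul_smul]
        exact Δ.mem_Res.1 (Δ.mem_Res_trans h1 h2)
      inv_mem' := by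
        intro a ha
        show Δ.δ c (a⁻¹ • c) ∈ WJ cs (J : Set P.S)
        rw [← hiso a, smul_inv_smul]
        have h1 : (a • c) ∈ Δ.Res (J : Set P.S) c := Δ.mem_Res.2 ha
        exact Δ.mem_Res.1 (Δ.mem_Res_symm h1) }
  have hQ : ∀ (J : Finset P.S) (g : K), g ∈ Q J ↔ Δ.δ c (g • c) ∈ WJ cs (J : Set P.S) := fun J g => Iff.rfl
  -- the apartment
  let a : WP P → K ⧸ P.B := fun w => QuotientGroup.mk ((w.out : P.N) : K)
  have ha : ∀ v w, Δ.δ (a v) (a w) = v⁻¹ * w := by
    intro v w
    show dist P (QuotientGroup.mk ((v.out : P.N) : K)) (QuotientGroup.mk ((w.out : P.N) : K)) = _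
    rw [dist_mk]
    have h1 : ((v.out : P.N) : K)⁻¹ * ((w.out : P.N) : K) = ((v.out⁻¹ * w.out : P.N) : K) := by push_cast; rfl
    rw [h1, wt_of_mem P (n := v.out⁻¹ * w.out) (LieExceptional.BNPairCore.self_mem_C _), QuotientGroup.mk_mul,
      QuotientGroup.mk_inv, QuotientGroup.out_eq', QuotientGroup.out_eq']
  obtain ⟨h1, h2⟩ := H167.AltBldg.exists_char_alt Δ hiso htr a ha c Q hQ
  refine ⟨_, h1, ?_, ?_⟩
  · intro g
    rw [Complex.im_sum]
    refine Finset.sum_eq_zero fun J _ => ?_
    unfold fixedPointCharacter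
    rcases neg_one_pow_eq_or ℂ J.card with h3 | h3 <;> rw [h3] <;> simp
  · obtain ⟨d, hd⟩ := Tits.Opp.exists_opp Δ c
    have h3 := h2 c 1 (one_smul _ _)
    have h4 : Nat.card {y : K ⧸ P.B // Δ.Opp c y ∧ (1 : K) • y = y} = Nat.card (S.U c) := by
      have hstab : ∀ u ∈ S.U c, ∀ e, Δ.Opp c e → Δ.Opp c (u • e) := by
        intro u hu e he
        have h1 := S.iso u c e
        rw [S.fix c u hu] at h1
        exact h1.trans he
      refine Nat.card_congr (Equiv.ofBijective
        (fun v : S.U c => (⟨(v : K) • d, hstab v v.2 d hd, one_smul _ _⟩ :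
          {y : K ⧸ P.B // Δ.Opp c y ∧ (1 : K) • y = y})) ⟨?_, ?_⟩).symm
      · intro v w hvw
        have h1 : (v : K) • d = (w : K) • d := congrArg Subtype.val hvw
        have h2 : ((w : K)⁻¹ * v) • d = d := by rw [mul_smul, h1, inv_smul_smul]
        have h3 := S.free c d hd _ (mul_mem (inv_mem w.2) v.2) h2
        exact Subtype.ext (inv_mul_eq_one.1 h3).symm
      · rintro ⟨e, he, he'⟩
        obtain ⟨v, hv, rfl⟩ := S.trans c d e hd he
        exact ⟨⟨v, hv⟩, rfl⟩
    have h5 : (charDegree (fun g : K => ∑ J ∈ (Finset.univ : Finset P.S).powerset, (-1 : ℂ) ^ J.card *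
        fixedPointCharacter (Q J) g) : ℂ) = ((Nat.card (S.U c) : ℕ) : ℂ) := by
      rw [← h4, ← h3]
      exact (Blocks.Knorr.charDegree_eq h1).symm
    have h6 := Nat.cast_injective h5
    rw [h6]
    -- `S.U c` is a Sylow `p`-subgroup
    obtain ⟨Y, hY⟩ := (S.isP c).exists_le_sylow
    obtain ⟨c', hc'⟩ := S.exists_fix Y Y.isPGroup'
    have hY' : (Y : Subgroup K) = S.U c' :=
      (Y.is_maximal' (S.isP c') (S.max c' Y Y.isPGroup' hc')).symm
    have hcard : Nat.card (S.U c) = Nat.card (S.U c') := by
      obtain ⟨g, hg⟩ := MulAction.exists_smul_eq K c c'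
      have hle : ∀ (x y : K ⧸ P.B) (g : K), g • x = y → Nat.card (S.U x) ≤ Nat.card (S.U y) := by
        intro x y g hg
        have h7 : (S.U x).map (MulAut.conj g).toMonoidHom ≤ S.U y := by
          refine S.max y _ ((S.isP x).map _) ?_
          rintro _ ⟨v, hv, rfl⟩
          show (g * v * g⁻¹) • y = y
          rw [← hg, mul_smul, mul_smul, inv_smul_smul, S.fix x v hv]
        have h8 := Subgroup.card_le_of_le h7
        rwa [Nat.card_congr ((S.U x).equivMapOfInjective _ (MulAut.conj g).injective).toEquiv.symm] at h8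
      exact le_antisymm (hle c c' g hg) (hle c' c g⁻¹ (by rw [← hg, inv_smul_smul]))
    rw [hcard, ← hY']
    exact Sylow.card_eq_multiplicity Y

end Steinberg

section

variable {K : Type u} [Group K] [Finite K] {p : ℕ}

/-- **The `p`-part of the order of a group with a split (B,N)-pair of characteristic `p` is at most the index of every
subgroup of odd order.** -/
theorem part_le_index [hp : Fact p.Prime] (h : HasSplit p K) {X : Subgroup K} (hX : Odd (Nat.card X)) :
    p ^ (Nat.card K).factorization p ≤ X.index := by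
  by_cases hp2 : p = 2
  · subst hp2
    have h1 : 2 ^ (Nat.card K).factorization 2 ∣ Nat.card X * X.index := by
      rw [X.card_mul_index]
      exact Nat.ordProj_dvd _ _
    have h2 : (2 ^ (Nat.card K).factorization 2).Coprime (Nat.card X) :=
      Nat.Coprime.pow_left _ (Nat.coprime_two_left.2 hX)
    exact Nat.le_of_dvd (Nat.pos_of_ne_zero X.index_ne_zero_of_finite) (h2.dvd_of_dvd_mul_left h1)
  · obtain ⟨P, U, -, hU⟩ := h
    obtain ⟨χ, h1, h2, h3⟩ := exists_real_steinberg hU
    rw [← h3]
    refine degree_le_index hX h1 h2 ?_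
    rw [h3]
    exact (hp.out.odd_of_ne_two hp2).pow

/-- the version for simple groups of Lie type -/
theorem part_le_index_of_lie [IsSimpleGroup K] (hp : p.Prime) (h : IsLieTypeChar p K) {X : Subgroup K}
    (hX : Odd (Nat.card X)) : p ^ (Nat.card K).factorization p ≤ X.index := by
  have : Fact p.Prime := ⟨hp⟩
  exact part_le_index (H979.LieSplit.hasSplit_of_isLieTypeChar hp h) hX

/-- **The version for sections**: `L` a group with a split (B,N)-pair, a quotient of the subgroup `C` of `K`. -/
theorem part_le_relIndex [hp : Fact p.Prime] {L : Type*} [Group L] (h : HasSplit p L) {C X : Subgroup K}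
    (φ : C →* L) (hφ : Function.Surjective φ) (hX : Odd (Nat.card X)) :
    p ^ (Nat.card L).factorization p ≤ X.relIndex C := by
  have : Finite L := Finite.of_surjective φ hφ
  have h1 : Odd (Nat.card ((X.subgroupOf C).map φ)) := by
    have h2 : Nat.card ((X.subgroupOf C).map φ) ∣ Nat.card (X.subgroupOf C) := Subgroup.card_map_dvd _ _
    have h3 : Nat.card (X.subgroupOf C) ∣ Nat.card X := by
      have h4 : Nat.card ((X.subgroupOf C).map C.subtype) = Nat.card (X.subgroupOf C) :=
        (Nat.card_congr ((X.subgroupOf C).equivMapOfInjective _ C.subtype_injective).toEquiv).symm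
      rw [← h4]
      refine Subgroup.card_dvd_of_le ?_
      rintro _ ⟨x, hx, rfl⟩
      exact hx
    exact Odd.of_dvd_nat hX (h2.trans h3)
  refine (part_le_index h h1).trans ?_
  show _ ≤ (X.subgroupOf C).index
  exact Nat.le_of_dvd (Nat.pos_of_ne_zero Subgroup.index_ne_zero_of_finite) (Subgroup.index_map_dvd _ hφ)

end

end Cfsg.Agent.H283.Fxo
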